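import Mathlib
import Cfsg.Agent.Dickson.PSL
import Cfsg.Agent.SL2.PSL
import Cfsg.Agent.SmallIso.PSLTwo
import Cfsg.Agent.Classical.Linear.Simple
import Cfsg.Agent.S2257

/-!
When do two elements of `PSL(2, 3^p)`, `p` an odd prime, generate a solvable subgroup: a criterion
in the traces of lifts.
-/

set_option autoImplicit false

namespace CfsgLib.PSLSolub

open CfsgLib.SL2 Matrix
open scoped MatrixGroups commutatorElement

variable {F : Type*} [Field F]

local notation "PSL₂" F => Matrix.ProjectiveSpecialLinearGroup (Fin 2) F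

/-- Four less than the trace of the commutator plus two, as a polynomial in the traces. -/
def kap (g h : SL(2, F)) : F :=
  tr g ^ 2 + tr h ^ 2 + tr (g * h) ^ 2 - tr g * tr h * tr (g * h) - 4

/-- The trace criterion. -/
def Good (g h : SL(2, F)) : Prop :=
  kap g h = 0 ∨ (tr g = 0 ∧ tr h = 0) ∨ (tr g = 0 ∧ tr (g * h) = 0) ∨ (tr h = 0 ∧ tr (g * h) = 0) ∨
    (tr g ^ 3 = tr g ∧ tr h ^ 3 = tr h ∧ tr (g * h) ^ 3 = tr (g * h))

theorem tr_neg' (g : SL(2, F)) : tr (-g) = -tr g := by simp [tr]; ring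

theorem tr_one' : tr (1 : SL(2, F)) = 2 := by simp [tr]; norm_num

theorem tr_comm (g h : SL(2, F)) : tr ⁅g, h⁆ = kap g h + 2 := by
  have hg := det_eq g
  have hh := det_eq h
  simp only [kap, commutatorElement_def, tr, Matrix.SpecialLinearGroup.coe_mul,
    Matrix.SpecialLinearGroup.coe_inv, Matrix.adjugate_fin_two, Matrix.mul_apply, Fin.sum_univ_two,
    Matrix.cons_val_zero, Matrix.cons_val_one, Matrix.of_apply]
  linear_combination ((h 0 0 + h 1 1) ^ 2 - 2 * (h 0 0 * h 1 1 - h 0 1 * h 1 0)) * hg +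
    ((g 0 0 + g 1 1) ^ 2 - 2) * hh

theorem tr_mul_self_mul (g : SL(2, F)) : tr (g * g * g) = tr g ^ 3 - 3 * tr g := by
  have hg := det_eq g
  simp only [tr, Matrix.SpecialLinearGroup.coe_mul, Matrix.mul_apply, Fin.sum_univ_two]
  linear_combination (-3 * (g 0 0 + g 1 1)) * hg

theorem kap_conj (c g h : SL(2, F)) : kap (c * g * c⁻¹) (c * h * c⁻¹) = kap g h := by
  rw [kap, kap, show c * g * c⁻¹ * (c * h * c⁻¹) = c * (g * h) * c⁻¹ by group, tr_conj, tr_conj, tr_conj]

theorem Good.conj {g h : SL(2, F)} (c : SL(2, F)) (hg : Good g h) : Good (c * g * c⁻¹) (c * h * c⁻¹) := by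
  rw [Good, kap_conj, show c * g * c⁻¹ * (c * h * c⁻¹) = c * (g * h) * c⁻¹ by group, tr_conj, tr_conj,
    tr_conj]
  exact hg

theorem good_neg_left {g h : SL(2, F)} : Good (-g) h ↔ Good g h := by
  have h3 : ∀ a : F, (-a) ^ 3 = -a ↔ a ^ 3 = a := fun a => by
    rw [neg_pow, show ((-1 : F) ^ 3) = -1 by ring, neg_one_mul, neg_inj]
  have hk : kap (-g) h = kap g h := by simp only [kap, neg_mul, tr_neg']; ring
  simp only [Good, hk, neg_mul, tr_neg', neg_eq_zero, h3]

theorem good_neg_right {g h : SL(2, F)} : Good g (-h) ↔ Good g h := by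
  have h3 : ∀ a : F, (-a) ^ 3 = -a ↔ a ^ 3 = a := fun a => by
    rw [neg_pow, show ((-1 : F) ^ 3) = -1 by ring, neg_one_mul, neg_inj]
  have hk : kap g (-h) = kap g h := by simp only [kap, mul_neg, tr_neg']; ring
  simp only [Good, hk, mul_neg, tr_neg', neg_eq_zero, h3]

/-- The standard Borel subgroup has abelian derived subgroup. -/
theorem meta_B : Cfsg.Agent.S2257.Meta (SL2.B : Subgroup SL(2, F)) := by
  have hcomm : ∀ a b : SL(2, F), a ∈ (SL2.B : Subgroup SL(2, F)) → b ∈ (SL2.B : Subgroup SL(2, F)) →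
      ⁅a, b⁆ ∈ (SL2.U : Subgroup SL(2, F)) := by
    intro a b ha hb
    have h00 : ∀ g k : SL(2, F), k ∈ (SL2.B : Subgroup SL(2, F)) → (g * k) 0 0 = g 0 0 * k 0 0 := by
      intro g k hk
      simp [Matrix.SpecialLinearGroup.coe_mul, Matrix.mul_apply, Fin.sum_univ_two, (show k 1 0 = 0 from hk)]
    have h11 : ∀ g k : SL(2, F), g ∈ (SL2.B : Subgroup SL(2, F)) → (g * k) 1 1 = g 1 1 * k 1 1 := by
      intro g k hg
      simp [Matrix.SpecialLinearGroup.coe_mul, Matrix.mul_apply, Fin.sum_univ_two, (show g 1 0 = 0 from hg)]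
    have e0 : ∀ g : SL(2, F), g ∈ (SL2.B : Subgroup SL(2, F)) → g 0 0 * g⁻¹ 0 0 = 1 := fun g hg => by
      rw [← h00 g g⁻¹ (inv_mem hg), mul_inv_cancel]; simp
    have e1 : ∀ g : SL(2, F), g ∈ (SL2.B : Subgroup SL(2, F)) → g 1 1 * g⁻¹ 1 1 = 1 := fun g hg => by
      rw [← h11 g g⁻¹ hg, mul_inv_cancel]; simp
    rw [SL2.mem_U_iff_entries, commutatorElement_def]
    refine ⟨?_, mul_mem (mul_mem (mul_mem ha hb) (inv_mem ha)) (inv_mem hb), ?_⟩
    · rw [h00 _ _ (inv_mem hb), h00 _ _ (inv_mem ha), h00 _ _ hb, mul_right_comm (a 0 0), e0 a ha,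
        one_mul, e0 b hb]
    · rw [h11 _ _ (mul_mem (mul_mem ha hb) (inv_mem ha)), h11 _ _ (mul_mem ha hb), h11 _ _ ha,
        mul_right_comm (a 1 1), e1 a ha, one_mul, e1 b hb]
  intro a b x y
  apply Subtype.ext
  obtain ⟨s, hs⟩ := SL2.mem_U.mp (hcomm _ _ a.2 b.2)
  obtain ⟨t, ht⟩ := SL2.mem_U.mp (hcomm _ _ x.2 y.2)
  show (SL2.B : Subgroup SL(2, F)).subtype ⁅⁅a, b⁆, ⁅x, y⁆⁆ = 1
  simp only [map_commutatorElement, Subgroup.subtype_apply]
  rw [hs, ht, commutatorElement_eq_one_iff_mul_comm, ← SL2.u_add, ← SL2.u_add, add_comm]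

/-- Subgroups of a conjugate of the image of the Borel subgroup are solvable. -/
theorem isSolvable_of_le {H : Subgroup (PSL₂ F)} (c : PSL₂ F)
    (h : H ≤ ((SL2.B : Subgroup SL(2, F)).map pmk).map (MulAut.conj c).toMonoidHom) : Group.IsSolvable H := by
  have hB : Group.IsSolvable (SL2.B : Subgroup SL(2, F)) := Cfsg.Agent.S2257.isSolvable_of_meta meta_B
  have h1 : Group.IsSolvable ((SL2.B : Subgroup SL(2, F)).map pmk) :=
    Group.isSolvable_of_surjective (f := pmk.subgroupMap SL2.B) (MonoidHom.subgroupMap_surjective _ _)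
  have h2 : Group.IsSolvable (((SL2.B : Subgroup SL(2, F)).map pmk).map (MulAut.conj c).toMonoidHom) :=
    Group.isSolvable_of_surjective (f := (MulAut.conj c).toMonoidHom.subgroupMap _)
      (MonoidHom.subgroupMap_surjective _ _)
  exact Group.isSolvable_of_isSolvable_injective (f := Subgroup.inclusion h) (Subgroup.inclusion_injective h)

/-- Every element has order at most three. -/
def SmallOrders (H : Type*) [Group H] : Prop := ∀ x : H, x * x = 1 ∨ x * x * x = 1

variable [Fintype F]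

theorem not_comm : ¬ ∀ a b : PSL₂ F, a * b = b * a := by
  intro h
  have h' := h (pmk (u 1)) (pmk (l 1))
  rw [← map_mul, ← map_mul] at h'
  rcases pmk_eq_iff.1 h' with e | e
  · have := congrArg (fun g : SL(2, F) => g 0 0) e
    simp [coe_u, coe_l, Matrix.mul_apply, Fin.sum_univ_two] at this
  · have := congrArg (fun g : SL(2, F) => g 0 1) e
    have h2 := congrArg (fun g : SL(2, F) => g 1 1) e
    have h0 := congrArg (fun g : SL(2, F) => g 0 0) e
    simp [coe_u, coe_l, Matrix.mul_apply, Fin.sum_univ_two] at this h2 h0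
    exact one_ne_zero (by linear_combination h0 - this : (1 : F) = 0)

variable {p : ℕ} (hp : p.Prime) (hodd : Odd p) (hF : Fintype.card F = 3 ^ p)
include hp hF

theorem charP_three : CharP F 3 :=
  have : Fact (Nat.Prime 3) := ⟨Nat.prime_three⟩
  CfsgLib.SmallIso.charP_of_card (k := p) hp.ne_zero hF

theorem two_ne_zero' : (2 : F) ≠ 0 :=
  two_ne_zero_iff_odd.2 (hF ▸ Odd.pow (by decide))

theorem isSimple : IsSimpleGroup (PSL₂ F) :=
  CfsgLib.Classical.Linear.isSimpleGroup_psl_fin le_rfl fun _ => by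
    rw [Nat.card_eq_fintype_card, hF]
    calc 4 ≤ 3 ^ 2 := by norm_num
      _ ≤ 3 ^ p := Nat.pow_le_pow_right (by norm_num) hp.two_le

include hodd

theorem five_not_dvd : ¬ 5 ∣ Nat.card (PSL₂ F) := by
  intro h
  have hh : 5 ∣ Nat.card SL(2, F) := h.trans (Subgroup.card_dvd_of_surjective pmk pmk_surjective)
  rw [card_SL, hF] at hh
  rcases (Nat.Prime.dvd_mul (by norm_num)).1 hh with h5 | h5
  · exact absurd ((Nat.prime_dvd_prime_iff_eq (by norm_num) Nat.prime_three).1
      (Nat.Prime.dvd_of_dvd_pow (by norm_num) h5)) (by norm_num)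
  · obtain ⟨k, rfl⟩ := hodd
    have h9 : (3 ^ (2 * k + 1)) ^ 2 % 5 = 4 := by
      rw [← pow_mul, show (2 * k + 1) * 2 = 4 * k + 2 by ring, pow_add, pow_mul, Nat.mul_mod, Nat.pow_mod]
      norm_num
    have : 1 ≤ (3 ^ (2 * k + 1)) ^ 2 := Nat.one_le_pow _ _ (by positivity)
    omega

/-- The proper subgroups. -/
theorem proper_cases (H : Subgroup (PSL₂ F)) (hH : H ≠ ⊤) :
    Group.IsSolvable H ∧
    ((∃ c, H ≤ ((SL2.B : Subgroup SL(2, F)).map pmk).map (MulAut.conj c).toMonoidHom) ∨ IsCyclic H ∨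
      (∃ n, Nonempty (H ≃* DihedralGroup n)) ∨ SmallOrders H) := by
  classical
  have : Fact (Nat.Prime 3) := ⟨Nat.prime_three⟩
  have := charP_three hp hF
  rcases CfsgLib.Dickson.classify_psl 3 H with ⟨z, hz⟩ | ⟨hc, -, -⟩ | ⟨n, -, -, ⟨i⟩, -⟩ | ⟨h, -⟩ | ⟨h, -⟩ |
    ⟨-, ⟨i⟩⟩ | ⟨L, m, hm, ⟨⟨i⟩, hev⟩ | ⟨-, ⟨i⟩⟩⟩
  · obtain ⟨g, rfl⟩ := CfsgLib.Dickson.exists_psl_smul_infty z
    rw [CfsgLib.Dickson.pslStab_smul, CfsgLib.Dickson.pslStab_infty] at hz
    exact ⟨isSolvable_of_le g hz, Or.inl ⟨g, hz⟩⟩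
  · exact ⟨Cfsg.Agent.S2257.isSolvable_of_meta (Cfsg.Agent.S2257.meta_cyclic hc), Or.inr (Or.inl hc)⟩
  · exact ⟨Cfsg.Agent.S2257.isSolvable_of_meta (Cfsg.Agent.S2257.meta_of_equiv i Cfsg.Agent.S2257.meta_dihedral),
      Or.inr (Or.inr (Or.inl ⟨n, ⟨i⟩⟩))⟩
  · exact absurd (by norm_num) h
  · exact absurd (by norm_num) h
  · refine absurd (dvd_trans ?_ H.card_subgroup_dvd_card) (five_not_dvd hp hodd hF)
    rw [Nat.card_congr i.toEquiv, nat_card_alternatingGroup, Nat.card_fin]
    decide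
  · exfalso
    rw [hF] at hm
    obtain ⟨f, -, hf⟩ := (Nat.dvd_prime_pow Nat.prime_three).mp
      (show Nat.card L ∣ 3 ^ p from hm ▸ dvd_pow_self (Nat.card L) fun h => by
        rw [h, pow_zero] at hm; exact (Nat.one_lt_pow hp.ne_zero (by norm_num)).ne hm)
    rw [hf, ← pow_mul] at hm
    have hpm : f * m = p := Nat.pow_right_injective (by norm_num) hm
    exact Nat.not_even_iff_odd.2 hodd (hpm ▸ (hev (by norm_num)).mul_left f)
  · let _ : Fintype L := Fintype.ofFinite _
    rw [hF] at hm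
    obtain ⟨f, -, hf⟩ := (Nat.dvd_prime_pow Nat.prime_three).mp
      (show Nat.card L ∣ 3 ^ p from hm ▸ dvd_pow_self (Nat.card L) fun h => by
        rw [h, pow_zero] at hm; exact (Nat.one_lt_pow hp.ne_zero (by norm_num)).ne hm)
    rw [hf, ← pow_mul] at hm
    rcases hp.eq_one_or_self_of_dvd f ⟨m, (Nat.pow_right_injective (by norm_num) hm).symm⟩ with rfl | rfl
    · obtain ⟨e4⟩ := CfsgLib.SmallIso.psl_two_card_three (F := L)
        (by rw [← Nat.card_eq_fintype_card, hf]; rfl)
      let e := i.trans e4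
      have hkey : ∀ a b : alternatingGroup (Fin 4),
          ⁅a, b⁆ * ⁅a, b⁆ = 1 := by simp only [commutatorElement_def]; decide +kernel
      have hV : ∀ x y : alternatingGroup (Fin 4), x * x = 1 → y * y = 1 → x * y = y * x := by decide +kernel
      refine ⟨Cfsg.Agent.S2257.isSolvable_of_meta (Cfsg.Agent.S2257.meta_of_equiv e fun a b c d =>
        commutatorElement_eq_one_iff_mul_comm.2 (hV _ _ (hkey a b) (hkey c d))), Or.inr (Or.inr (Or.inr ?_))⟩
      have hs : ∀ x : alternatingGroup (Fin 4), x * x = 1 ∨ x * x * x = 1 := by decide +kernel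
      intro x
      rcases hs (e x) with h | h
      · exact Or.inl (e.injective (by rw [map_mul, h, map_one]))
      · exact Or.inr (e.injective (by rw [map_mul, map_mul, h, map_one]))
    · exfalso
      refine hH (Subgroup.eq_top_of_card_eq _ ?_)
      have h1 := card_PSL_odd (F := L) (by rw [← Nat.card_eq_fintype_card, hf]; exact Odd.pow (by decide))
      have h2 := card_PSL_odd (F := F) (by rw [hF]; exact Odd.pow (by decide))
      rw [Nat.card_congr i.toEquiv]
      rw [← Nat.card_eq_fintype_card, hf] at h1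
      rw [hF] at h2
      omega

theorem isSolvable_iff (H : Subgroup (PSL₂ F)) : Group.IsSolvable H ↔ H ≠ ⊤ := by
  refine ⟨?_, fun h => (proper_cases hp hodd hF H h).1⟩
  rintro hs rfl
  have := isSimple hp hF
  have : Group.IsSolvable (PSL₂ F) :=
    Group.isSolvable_of_surjective (f := (⊤ : Subgroup (PSL₂ F)).subtype) (fun g => ⟨⟨g, trivial⟩, rfl⟩)
  exact not_comm fun a b => IsSimpleGroup.comm_iff_isSolvable.mpr this a b

theorem tr_cube_of_small {g : SL(2, F)} (h : pmk g * pmk g = 1 ∨ pmk g * pmk g * pmk g = 1) :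
    tr g ^ 3 = tr g := by
  have := charP_three hp hF
  have : Fact (Nat.Prime 3) := ⟨Nat.prime_three⟩
  have h3 : (3 : F) = 0 := CharP.cast_eq_zero F 3
  rcases h with h | h
  · rw [← map_mul] at h
    rcases pmk_eq_one_iff.1 h with e | e
    · by_cases hg : g = 1
      · rw [hg, tr_one']; linear_combination 2 * h3
      · rw [eq_neg_one_of_mul_self (two_ne_zero' hp hF) hg e, tr_neg', tr_one']
        linear_combination -2 * h3
    · rw [mul_self_eq_neg_one_iff.1 e]; ring
  · rw [← map_mul, ← map_mul] at h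
    have ht := tr_mul_self_mul g
    rcases pmk_eq_one_iff.1 h with e | e
    · rw [e, tr_one'] at ht
      have : (tr g - 2) ^ 3 = 0 := by linear_combination -ht + (-2 * tr g ^ 2 + 5 * tr g - 2) * h3
      rw [sub_eq_zero.1 (pow_eq_zero_iff (by norm_num) |>.1 this)]
      linear_combination 2 * h3
    · rw [e, tr_neg', tr_one'] at ht
      have : (tr g + 2) ^ 3 = 0 := by linear_combination -ht + (2 * tr g ^ 2 + 5 * tr g + 2) * h3
      rw [eq_neg_of_add_eq_zero_left (pow_eq_zero_iff (by norm_num) |>.1 this)]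
      linear_combination -2 * h3

theorem good_of_commute {g h : SL(2, F)} (hc : pmk g * pmk h = pmk h * pmk g) : Good g h := by
  rw [← map_mul, ← map_mul] at hc
  rcases pmk_eq_iff.1 hc with e | e
  · left
    have := tr_comm g h
    rw [commutatorElement_eq_one_iff_mul_comm.2 e, tr_one'] at this
    linear_combination -this
  · have h2 := two_ne_zero' hp hF
    have key : ∀ g h : SL(2, F), g * h = -(h * g) → tr g = 0 := fun g h e => by
      have : h⁻¹ * (g * h) = -g := by rw [e, mul_neg, inv_mul_cancel_left]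
      have h' := congrArg tr this
      rw [tr_neg', show h⁻¹ * (g * h) = h⁻¹ * g * h⁻¹⁻¹ by group, tr_conj] at h'
      have : (2 : F) * tr g = 0 := by linear_combination h'
      exact (mul_eq_zero.1 this).resolve_left h2
    exact Or.inr (Or.inl ⟨key g h e, key h g (by rw [e, neg_neg])⟩)

theorem good_of_solvable {g h : SL(2, F)}
    (hs : Group.IsSolvable (Subgroup.closure ({pmk g, pmk h} : Set (PSL₂ F)))) : Good g h := by
  classical
  set H := Subgroup.closure ({pmk g, pmk h} : Set (PSL₂ F))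
  have hg : pmk g ∈ H := Subgroup.subset_closure (by simp)
  have hh : pmk h ∈ H := Subgroup.subset_closure (by simp)
  have h2 := two_ne_zero' hp hF
  have hinv : ∀ g : SL(2, F), pmk g * pmk g = 1 → pmk g ≠ 1 → tr g = 0 := fun g e e1 => by
    refine (orderOf_pmk_eq_two_iff h2).1 (orderOf_eq_prime (by rw [pow_two, e]) e1)
  rcases (proper_cases hp hodd hF H ((isSolvable_iff hp hodd hF H).1 hs)).2 with ⟨c, hc⟩ | hc | ⟨n, ⟨i⟩⟩ | hsm
  · left
    obtain ⟨c, rfl⟩ := pmk_surjective c
    have key : ∀ y : SL(2, F), pmk y ∈ H → (c⁻¹ * y * c) 1 0 = 0 := by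
      intro y hy
      obtain ⟨_, ⟨b, hb, rfl⟩, e⟩ := hc hy
      have e' : pmk b = pmk (c⁻¹ * y * c) := by
        rw [map_mul, map_mul, ← e, map_inv]
        simp [mul_assoc]
      rcases pmk_eq_iff.1 e'.symm with e'' | e'' <;> rw [e'']
      · exact hb
      · show -(b 1 0) = 0
        rw [show b 1 0 = 0 from hb, neg_zero]
    rw [← kap_conj c⁻¹, inv_inv]
    have h10 := key g hg
    have h10' := key h hh
    generalize c⁻¹ * g * c = a at h10 ⊢
    generalize c⁻¹ * h * c = b at h10' ⊢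
    have ha := det_eq a
    have hb := det_eq b
    rw [h10, mul_zero, sub_zero] at ha
    rw [h10', mul_zero, sub_zero] at hb
    simp only [kap, tr, Matrix.SpecialLinearGroup.coe_mul, Matrix.mul_apply, Fin.sum_univ_two, h10, h10',
      mul_zero, zero_mul, add_zero, zero_add]
    linear_combination (2 - b 0 0 ^ 2 - b 1 1 ^ 2) * ha + (2 - a 0 0 ^ 2 - a 1 1 ^ 2) * hb
  · obtain ⟨z, hz⟩ := hc.exists_generator
    obtain ⟨i, hi⟩ := Subgroup.mem_zpowers_iff.mp (hz ⟨_, hg⟩)
    obtain ⟨j, hj⟩ := Subgroup.mem_zpowers_iff.mp (hz ⟨_, hh⟩)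
    refine good_of_commute hp hodd hF (congrArg Subtype.val
      (show (⟨_, hg⟩ : H) * ⟨_, hh⟩ = ⟨_, hh⟩ * ⟨_, hg⟩ by rw [← hi, ← hj]; group))
  · have tz : ∀ (y : SL(2, F)) (hy : pmk y ∈ H) (j : ZMod n), i ⟨pmk y, hy⟩ = DihedralGroup.sr j →
        tr y = 0 := by
      intro y hy j hj
      refine hinv y ?_ ?_
      · have e : (⟨pmk y, hy⟩ : H) * ⟨pmk y, hy⟩ = 1 := i.injective (by
          rw [map_mul, hj, DihedralGroup.sr_mul_self, map_one])
        exact congrArg Subtype.val e
      · intro e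
        have e' : (⟨pmk y, hy⟩ : H) = 1 := Subtype.ext e
        rw [e', map_one, DihedralGroup.one_def] at hj
        cases hj
    have hgh : pmk (g * h) ∈ H := by rw [map_mul]; exact mul_mem hg hh
    have eq : i ⟨pmk (g * h), hgh⟩ = i ⟨_, hg⟩ * i ⟨_, hh⟩ := by
      rw [← map_mul]; congr 1
    cases hx : i ⟨_, hg⟩ with
    | r a =>
      cases hy : i ⟨_, hh⟩ with
      | r b =>
        refine good_of_commute hp hodd hF (congrArg Subtype.val (i.injective ?_ :
          (⟨_, hg⟩ : H) * ⟨_, hh⟩ = ⟨_, hh⟩ * ⟨_, hg⟩))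
        rw [map_mul, map_mul, hx, hy, DihedralGroup.r_mul_r, DihedralGroup.r_mul_r, add_comm]
      | sr b =>
        rw [hx, hy, DihedralGroup.r_mul_sr] at eq
        exact Or.inr (Or.inr (Or.inr (Or.inl ⟨tz h hh _ hy, tz _ hgh _ eq⟩)))
    | sr a =>
      cases hy : i ⟨_, hh⟩ with
      | r b =>
        rw [hx, hy, DihedralGroup.sr_mul_r] at eq
        exact Or.inr (Or.inr (Or.inl ⟨tz g hg _ hx, tz _ hgh _ eq⟩))
      | sr b => exact Or.inr (Or.inl ⟨tz g hg _ hx, tz h hh _ hy⟩)
  · have key : ∀ y : SL(2, F), pmk y ∈ H → tr y ^ 3 = tr y := fun y hy =>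
      tr_cube_of_small hp hodd hF ((hsm ⟨_, hy⟩).imp (congrArg Subtype.val) (congrArg Subtype.val))
    exact Or.inr (Or.inr (Or.inr (Or.inr ⟨key g hg, key h hh, key _ (by rw [map_mul]; exact mul_mem hg hh)⟩)))

/-- Two involutions generate a proper subgroup. -/
theorem closure_ne_top {x y : PSL₂ F} (hx : x * x = 1) (hy : y * y = 1) :
    Subgroup.closure ({x, y} : Set (PSL₂ F)) ≠ ⊤ := by
  classical
  intro htop
  have := isSimple hp hF
  set z := x * y with hz
  have hxz : x * z * x⁻¹ = z⁻¹ := by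
    rw [hz, _root_.mul_inv_rev, inv_eq_of_mul_eq_one_right hx, inv_eq_of_mul_eq_one_right hy, ← mul_assoc, hx, one_mul]
  have hyz : y * z * y⁻¹ = z⁻¹ := by
    rw [hz, _root_.mul_inv_rev, inv_eq_of_mul_eq_one_right hx, inv_eq_of_mul_eq_one_right hy,
      show y * (x * y) * y = y * x * (y * y) by group, hy, mul_one]
  have hle : Subgroup.closure ({x, y} : Set (PSL₂ F)) ≤
      Subgroup.normalizer (Subgroup.zpowers z : Set (PSL₂ F)) := by
    rw [Subgroup.closure_le]
    intro s hs
    rw [SetLike.mem_coe, Subgroup.mem_normalizer_iff_map_conj_eq, MonoidHom.map_zpowers]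
    show Subgroup.zpowers (s * z * s⁻¹) = _
    rw [show s * z * s⁻¹ = z⁻¹ by rcases hs with rfl | rfl <;> assumption, Subgroup.zpowers_inv]
  rw [htop, top_le_iff] at hle
  rcases (Subgroup.normalizer_eq_top_iff.mp hle).eq_bot_or_eq_top with h | h
  · have hxy : y = x := by
      rw [← inv_eq_of_mul_eq_one_right hx]
      exact (inv_eq_of_mul_eq_one_right (Subgroup.zpowers_eq_bot.mp h)).symm
    subst hxy
    refine not_comm (F := F) fun a b => ?_
    have hle : Subgroup.closure ({y, y} : Set (PSL₂ F)) ≤ Subgroup.zpowers y := by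
      rw [Subgroup.closure_le]; simp
    rw [htop] at hle
    obtain ⟨i, rfl⟩ := Subgroup.mem_zpowers_iff.mp (hle (Subgroup.mem_top a))
    obtain ⟨j, rfl⟩ := Subgroup.mem_zpowers_iff.mp (hle (Subgroup.mem_top b))
    group
  · refine not_comm (F := F) fun a b => ?_
    obtain ⟨i, rfl⟩ := Subgroup.mem_zpowers_iff.mp (show a ∈ Subgroup.zpowers z from h ▸ Subgroup.mem_top a)
    obtain ⟨j, rfl⟩ := Subgroup.mem_zpowers_iff.mp (show b ∈ Subgroup.zpowers z from h ▸ Subgroup.mem_top b)
    group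

theorem pmk_sq_of_tr_zero {g : SL(2, F)} (h : tr g = 0) : pmk g * pmk g = 1 := by
  rw [← map_mul, mul_self_of_tr_eq_zero h, pmk_eq_one_iff]; exact Or.inr rfl

theorem solvable_of_good {g h : SL(2, F)} (hgd : Good g h) :
    Group.IsSolvable (Subgroup.closure ({pmk g, pmk h} : Set (PSL₂ F))) := by
  classical
  have := charP_three hp hF
  rcases hgd with hk | ⟨ha, hb⟩ | ⟨ha, hc⟩ | ⟨hb, hc⟩ | ⟨ha, hb, hc⟩
  · have ht : tr ⁅g, h⁆ = 2 := by rw [tr_comm, hk, zero_add]
    by_cases h1 : ⁅g, h⁆ = 1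
    · have hgh : g * h = h * g := commutatorElement_eq_one_iff_mul_comm.1 h1
      have hcm : IsMulCommutative (Subgroup.closure ({pmk g, pmk h} : Set (PSL₂ F))) :=
        Subgroup.isMulCommutative_closure fun a ha b hb => by
          rcases ha with rfl | rfl <;> rcases hb with rfl | rfl <;> first
            | rfl
            | rw [← map_mul, ← map_mul, hgh]
      exact Cfsg.Agent.S2257.isSolvable_of_meta fun a b c d =>
        commutatorElement_eq_one_iff_mul_comm.2 (hcm.is_comm.comm _ _)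
    · obtain ⟨s, hs, hc⟩ := exists_isConj_u h1 ht
      obtain ⟨c, hc⟩ := isConj_iff.1 hc
      have hc' : (c * g * c⁻¹) * (c * h * c⁻¹) * (c * g * c⁻¹)⁻¹ * (c * h * c⁻¹)⁻¹ = u s := by
        rw [← hc, commutatorElement_def]; group
      have key : ∀ a b : SL(2, F), a * b * a⁻¹ * b⁻¹ = u s → a 1 0 = 0 ∧ b 1 0 = 0 := by
        intro a b e
        constructor
        · have e' : b * a⁻¹ * b⁻¹ = a⁻¹ * u s := by rw [← e]; group
          have := congrArg tr e'
          rw [tr_conj, tr, tr] at this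
          simp [Matrix.adjugate_fin_two, Matrix.mul_apply, Fin.sum_univ_two] at this
          exact this.resolve_right hs
        · have e' : a * b * a⁻¹ = u s * b := by rw [← e]; group
          have := congrArg tr e'
          rw [tr_conj, tr, tr] at this
          simp [Matrix.mul_apply, Fin.sum_univ_two] at this
          exact this.resolve_left hs
      obtain ⟨hg0, hh0⟩ := key _ _ hc'
      refine isSolvable_of_le (pmk c)⁻¹ ((Subgroup.closure_le _).2 ?_)
      rintro y (rfl | rfl)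
      · exact ⟨pmk (c * g * c⁻¹), ⟨_, hg0, rfl⟩, by simp [mul_assoc]⟩
      · exact ⟨pmk (c * h * c⁻¹), ⟨_, hh0, rfl⟩, by simp [mul_assoc]⟩
  all_goals refine (isSolvable_iff hp hodd hF _).2 ?_
  · exact closure_ne_top hp hodd hF (pmk_sq_of_tr_zero hp hodd hF ha) (pmk_sq_of_tr_zero hp hodd hF hb)
  · intro htop
    refine closure_ne_top hp hodd hF (pmk_sq_of_tr_zero hp hodd hF ha) (pmk_sq_of_tr_zero hp hodd hF hc)
      (top_le_iff.1 (htop ▸ (Subgroup.closure_le _).2 ?_))
    rintro y (rfl | rfl)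
    · exact Subgroup.subset_closure (by simp)
    · have : pmk h = (pmk g)⁻¹ * pmk (g * h) := by rw [map_mul, inv_mul_cancel_left]
      rw [this]
      exact mul_mem (inv_mem (Subgroup.subset_closure (by simp))) (Subgroup.subset_closure (by simp))
  · intro htop
    refine closure_ne_top hp hodd hF (pmk_sq_of_tr_zero hp hodd hF hc) (pmk_sq_of_tr_zero hp hodd hF hb)
      (top_le_iff.1 (htop ▸ (Subgroup.closure_le _).2 ?_))
    rintro y (rfl | rfl)
    · have : pmk g = pmk (g * h) * (pmk h)⁻¹ := by rw [map_mul, mul_inv_cancel_right]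
      rw [this]
      exact mul_mem (Subgroup.subset_closure (by simp)) (inv_mem (Subgroup.subset_closure (by simp)))
    · exact Subgroup.subset_closure (by simp)
  · -- all traces in the prime field
    intro htop
    let K : Subfield F := Subfield.closure (∅ : Set F)
    have hK : ∀ a : F, a ^ 3 = a → a ∈ K := by
      intro a ha
      have : a * (a - 1) * (a + 1) = 0 := by linear_combination ha
      rcases mul_eq_zero.1 this with h | h
      · rcases mul_eq_zero.1 h with h | h
        · rw [h]; exact zero_mem K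
        · rw [sub_eq_zero.1 h]; exact one_mem K
      · rw [eq_neg_of_add_eq_zero_left h]; exact neg_mem (one_mem K)
    have hfix : ∀ a ∈ K, a ^ 3 = a := by
      intro a ha
      induction ha using Subfield.closure_induction with
      | mem x hx => exact absurd hx (Set.notMem_empty x)
      | one => exact one_pow 3
      | add x y _ _ h1 h2 => rw [add_pow_char, h1, h2]
      | neg x _ h1 => rw [neg_pow, h1]; ring
      | inv x _ h1 => rw [inv_pow, h1]
      | mul x y _ _ h1 h2 => rw [mul_pow, h1, h2]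
    -- the span of `1, g, h, g * h` over the prime field
    let M : Set (Matrix (Fin 2) (Fin 2) F) := {m | ∃ a b c d : F, a ∈ K ∧ b ∈ K ∧ c ∈ K ∧ d ∈ K ∧
      m = a • (1 : Matrix (Fin 2) (Fin 2) F) + b • (g : Matrix (Fin 2) (Fin 2) F) +
        c • (h : Matrix (Fin 2) (Fin 2) F) + d • ((g * h : SL(2, F)) : Matrix (Fin 2) (Fin 2) F)}
    have hA := hK _ ha
    have hB := hK _ hb
    have hC := hK _ hc
    have dg := det_eq g
    have dh := det_eq h
    have hgM : ∀ m ∈ M, (g : Matrix (Fin 2) (Fin 2) F) * m ∈ M := by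
      rintro m ⟨a, b, c, d, ka, kb, kc, kd, rfl⟩
      refine ⟨-b, a + b * tr g, -d, c + d * tr g, neg_mem kb, add_mem ka (mul_mem kb hA), neg_mem kd,
        add_mem kc (mul_mem kd hA), ?_⟩
      ext i j
      fin_cases i <;> fin_cases j <;>
        simp [tr, Matrix.mul_apply, Fin.sum_univ_two, Matrix.SpecialLinearGroup.coe_mul]
      · linear_combination (-b - d * h 0 0) * dg
      · linear_combination (-d * h 0 1) * dg
      · linear_combination (-d * h 1 0) * dg
      · linear_combination (-b - d * h 1 1) * dg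
    have hhM : ∀ m ∈ M, (h : Matrix (Fin 2) (Fin 2) F) * m ∈ M := by
      rintro m ⟨a, b, c, d, ka, kb, kc, kd, rfl⟩
      -- `h * g = (tr (g * h) - tr g * tr h) • 1 + tr h • g + tr g • h - g * h`
      -- and `h * g * h = tr (g * h) • h + g - tr g • 1`
      refine ⟨b * (tr (g * h) - tr g * tr h) - c - d * tr g, b * tr h + d,
        a + b * tr g + c * tr h + d * tr (g * h), -b,
        sub_mem (sub_mem (mul_mem kb (sub_mem hC (mul_mem hA hB))) kc) (mul_mem kd hA),
        add_mem (mul_mem kb hB) kd,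
        add_mem (add_mem (add_mem ka (mul_mem kb hA)) (mul_mem kc hB)) (mul_mem kd hC), neg_mem kb, ?_⟩
      ext i j
      fin_cases i <;> fin_cases j <;>
        simp [tr, Matrix.mul_apply, Fin.sum_univ_two, Matrix.SpecialLinearGroup.coe_mul]
      · linear_combination (-c - d * g 1 1) * dh
      · linear_combination (d * g 0 1) * dh
      · linear_combination (d * g 1 0) * dh
      · linear_combination (-c - d * g 0 0) * dh
    have hone : (1 : Matrix (Fin 2) (Fin 2) F) ∈ M :=
      ⟨1, 0, 0, 0, one_mem K, zero_mem K, zero_mem K, zero_mem K, by simp⟩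
    have hgen : ∀ y ∈ Subgroup.closure ({g, h} : Set SL(2, F)), ∀ m ∈ M,
        (y : Matrix (Fin 2) (Fin 2) F) * m ∈ M := by
      intro y hy
      rw [← Subgroup.mem_toSubmonoid, Subgroup.closure_toSubmonoid_of_finite] at hy
      induction hy using Submonoid.closure_induction with
      | mem y hy => rcases hy with rfl | rfl <;> assumption
      | one => intro m hm; rwa [Matrix.SpecialLinearGroup.coe_one, one_mul]
      | mul y z _ _ h1 h2 => intro m hm; rw [Matrix.SpecialLinearGroup.coe_mul, mul_assoc]; exact h1 _ (h2 m hm)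
    obtain ⟨a, -, ha3⟩ : ∃ a : F, a ∈ (Finset.univ : Finset F) ∧ a ^ 3 ≠ a := by
      by_contra hall
      push Not at hall
      have hcard : (Finset.univ : Finset F).card ≤ ({0, 1, -1} : Finset F).card := Finset.card_le_card fun a _ => by
        have : a * (a - 1) * (a + 1) = 0 := by linear_combination hall a (Finset.mem_univ a)
        rcases mul_eq_zero.1 this with h | h
        · rcases mul_eq_zero.1 h with h | h
          · simp [h]
          · simp [sub_eq_zero.1 h]
        · simp [eq_neg_of_add_eq_zero_left h]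
      rw [Finset.card_univ, hF] at hcard
      have h9 : 3 ^ 2 ≤ 3 ^ p := Nat.pow_le_pow_right (by norm_num) hp.two_le
      have := hcard.trans Finset.card_le_three
      omega
    obtain ⟨y, hy, e⟩ : pmk (comp a) ∈ (Subgroup.closure ({g, h} : Set SL(2, F))).map pmk := by
      rw [MonoidHom.map_closure, Set.image_pair, htop]; exact Subgroup.mem_top _
    obtain ⟨a', b, c, d, ka, kb, kc, kd, e'⟩ : (y : Matrix (Fin 2) (Fin 2) F) ∈ M := by
      simpa using hgen y hy 1 hone
    have hty : tr y ∈ K := by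
      rw [tr_eq_trace, e']
      simp only [Matrix.trace_add, Matrix.trace_smul, ← tr_eq_trace, Matrix.trace_one, smul_eq_mul]
      refine add_mem (add_mem (add_mem (mul_mem ka ?_) (mul_mem kb hA)) (mul_mem kc hB)) (mul_mem kd hC)
      exact natCast_mem K _
    refine ha3 (hfix _ ?_)
    rcases pmk_eq_iff.1 e with e | e
    · rw [← tr_comp a, ← e]; exact hty
    · rw [← tr_comp a, show comp a = -y by rw [e, neg_neg], tr_neg']
      exact neg_mem hty

/-- The criterion. -/
theorem solvable_iff_good (g h : SL(2, F)) :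
    Group.IsSolvable (Subgroup.closure ({pmk g, pmk h} : Set (PSL₂ F))) ↔ Good g h :=
  ⟨good_of_solvable hp hodd hF, solvable_of_good hp hodd hF⟩

end CfsgLib.PSLSolub
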