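import Mathlib
import Cfsg.Agent.PSLSolub.Criterion
import Cfsg.Agent.Sl2Classes.Count

/-!
Counting the elements which, together with a fixed one, generate a solvable subgroup of `PSL(2, 3^p)`.
-/

set_option autoImplicit false

namespace CfsgLib.PSLSolub

open CfsgLib.SL2 Matrix
open scoped MatrixGroups

variable {F : Type*} [Field F]

local notation "PSL₂" F => Matrix.ProjectiveSpecialLinearGroup (Fin 2) F

/-- The number of partners of `g`. -/
noncomputable def num (g : SL(2, F)) : ℕ := Nat.card {h : SL(2, F) // Good g h}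

theorem num_conj (c g : SL(2, F)) : num (c * g * c⁻¹) = num g := by
  refine (Nat.card_congr ((MulAut.conj c).toEquiv.subtypeEquiv fun h => ?_)).symm
  constructor
  · intro hg; exact hg.conj c
  · intro hg
    have := hg.conj c⁻¹
    simpa [mul_assoc] using this

theorem num_neg (g : SL(2, F)) : num (-g) = num g :=
  Nat.card_congr (Equiv.subtypeEquivRight fun _ => good_neg_left)

variable [Fintype F] {p : ℕ} (hp : p.Prime) (hodd : Odd p) (hF : Fintype.card F = 3 ^ p)
include hp hodd hF

/-- The solubilizer of `pmk g` is half of the partners of `g`. -/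
theorem two_mul_card (g : SL(2, F)) :
    2 * Nat.card {y : PSL₂ F // Group.IsSolvable (Subgroup.closure ({pmk g, y} : Set (PSL₂ F)))} = num g := by
  set t : Set (PSL₂ F) := {y | Group.IsSolvable (Subgroup.closure ({pmk g, y} : Set (PSL₂ F)))}
  have e1 : num g = Nat.card ((pmk : SL(2, F) → PSL₂ F) ⁻¹' t) :=
    Nat.card_congr (Equiv.subtypeEquivRight fun h => (solvable_iff_good hp hodd hF g h).symm)
  have e2 : Nat.card ((pmk : SL(2, F) → PSL₂ F) ⁻¹' t) =
      Nat.card (Subgroup.center SL(2, F)) * Nat.card t := by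
    rw [← Nat.card_prod]
    exact Nat.card_congr (QuotientGroup.preimageMkEquivSubgroupProdSet (Subgroup.center SL(2, F)) t)
  rw [e1, e2, card_center_odd (two_ne_zero' hp hF)]
  rfl

theorem card_mod_four : Fintype.card F % 4 = 3 := by
  obtain ⟨k, rfl⟩ := hodd
  rw [hF, pow_succ, pow_mul, Nat.mul_mod, Nat.pow_mod]
  norm_num

theorem not_isSquare_neg_one : ¬ IsSquare (-1 : F) := by
  rw [FiniteField.isSquare_neg_one_iff, card_mod_four hp hodd hF]
  simp

theorem sq_add_sq_eq_zero {a b : F} (h : a ^ 2 + b ^ 2 = 0) : a = 0 ∧ b = 0 := by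
  by_cases ha : a = 0
  · subst ha; simpa using h
  · exact absurd ⟨b / a, by field_simp; linear_combination -h⟩ (not_isSquare_neg_one hp hodd hF)

/-- The split case. -/
theorem num_split (a : Fˣ) (ha : tr (d a : SL(2, F)) ≠ 0) (ha3 : tr (d a : SL(2, F)) ^ 3 ≠ tr (d a : SL(2, F))) :
    num (d a : SL(2, F)) = 2 * (Fintype.card F * (Fintype.card F - 1)) := by
  classical
  have := charP_three hp hF
  have : Fact (Nat.Prime 3) := ⟨Nat.prime_three⟩
  set A : F := (a : F) with hAdef
  set A' : F := ((a⁻¹ : Fˣ) : F) with hA'def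
  have hAA : A * A' = 1 := a.mul_inv
  have hne : A - A' ≠ 0 := by
    intro e
    refine ha3 ?_
    rw [sub_eq_zero] at e
    rw [← e] at hAA
    rw [tr_d, ← hAdef, ← hA'def, ← e, add_pow_char]
    linear_combination (2 * A) * hAA
  have hgood : ∀ h : SL(2, F), Good (d a) h ↔
      (h 1 0 = 0 ∨ (h 0 1 = 0 ∧ h 1 0 ≠ 0)) ∨ (h 0 0 = 0 ∧ h 1 1 = 0) := by
    intro h
    have hd := det_eq h
    have htr : tr (d a * h) = A * h 0 0 + A' * h 1 1 := by
      simp [tr, Matrix.mul_apply, Fin.sum_univ_two, A, A']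
    have hk : kap (d a) h = -((A - A') ^ 2 * (h 0 1 * h 1 0)) := by
      rw [kap, htr, tr_d, tr, ← hAdef, ← hA'def]
      linear_combination (-((A - A') ^ 2)) * hd + (4 - (h 0 0 + h 1 1) ^ 2) * hAA
    constructor
    · rintro (e | ⟨e, -⟩ | ⟨e, -⟩ | ⟨e, e'⟩ | ⟨e, -, -⟩)
      · rw [hk, neg_eq_zero] at e
        rcases mul_eq_zero.1 ((mul_eq_zero.1 e).resolve_left (pow_ne_zero 2 hne)) with h0 | h0
        · by_cases h1 : h 1 0 = 0
          · exact Or.inl (Or.inl h1)
          · exact Or.inl (Or.inr ⟨h0, h1⟩)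
        · exact Or.inl (Or.inl h0)
      · exact absurd e ha
      · exact absurd e ha
      · right
        rw [htr] at e'
        rw [tr] at e
        have h00 : (A - A') * h 0 0 = 0 := by linear_combination e' - A' * e
        have := (mul_eq_zero.1 h00).resolve_left hne
        exact ⟨this, by linear_combination e - this⟩
      · exact absurd e ha3
    · rintro ((e | ⟨e, -⟩) | ⟨e, e'⟩)
      · left; rw [hk, e]; ring
      · left; rw [hk, e]; ring
      · exact Or.inr (Or.inr (Or.inr (Or.inl ⟨by rw [tr, e, e', add_zero], by rw [htr, e, e']; ring⟩)))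
  have e1 : Nat.card {h : SL(2, F) // h 1 0 = 0} = Fintype.card F * (Fintype.card F - 1) := B_nat_card
  have hu : Nat.card Fˣ = Fintype.card F - 1 := by rw [Nat.card_units, Nat.card_eq_fintype_card]
  have e2 : Nat.card {h : SL(2, F) // h 0 1 = 0 ∧ h 1 0 ≠ 0} = (Fintype.card F - 1) * (Fintype.card F - 1) := by
    rw [← hu, ← Nat.card_prod]
    refine Nat.card_congr
      { toFun := fun h => (Units.mk0 (h.1 0 0) fun e => by
            have := det_eq h.1
            rw [e, h.2.1] at this
            simp at this, Units.mk0 (h.1 1 0) h.2.2)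
        invFun := fun v => ⟨mk4 (v.1 : F) 0 (v.2 : F) ((v.1⁻¹ : Fˣ) : F) (by simp), by simp⟩
        left_inv := fun h => Subtype.ext (by
          have := det_eq h.1
          rw [h.2.1, zero_mul, sub_zero] at this
          apply ext4 <;> simp [h.2.1]
          exact inv_eq_of_mul_eq_one_right this)
        right_inv := fun v => by ext <;> simp }
  have e3 : Nat.card {h : SL(2, F) // h 0 0 = 0 ∧ h 1 1 = 0} = Fintype.card F - 1 := by
    rw [← hu]
    refine Nat.card_congr
      { toFun := fun h => Units.mk0 (h.1 1 0) fun e => by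
            have := det_eq h.1
            rw [e, h.2.1] at this
            simp at this
        invFun := fun v => ⟨mk4 0 (-((v⁻¹ : Fˣ) : F)) (v : F) 0 (by simp), by simp⟩
        left_inv := fun h => Subtype.ext (by
          have := det_eq h.1
          rw [h.2.1, zero_mul, zero_sub] at this
          apply ext4 <;> simp [h.2.1, h.2.2]
          have h10 : h.1 1 0 ≠ 0 := fun e => by simp [e] at this
          field_simp
          linear_combination this)
        right_inv := fun v => by ext; simp }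
  rw [Nat.card_eq_fintype_card, Fintype.card_subtype] at e1 e2 e3
  rw [num, Nat.card_eq_fintype_card, Fintype.card_subtype, Finset.filter_congr fun h _ => hgood h,
    Finset.filter_or, Finset.card_union_of_disjoint, Finset.filter_or, Finset.card_union_of_disjoint, e1, e2, e3]
  · have := Fintype.one_lt_card (α := F)
    obtain ⟨m, hm⟩ : ∃ m, Fintype.card F = m + 1 := ⟨_, (Nat.succ_pred_eq_of_pos Fintype.card_pos).symm⟩
    rw [hm, Nat.add_sub_cancel]
    ring
  · exact Finset.disjoint_filter.2 fun h _ h1 h2 => h2.2 h1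
  · refine Finset.disjoint_filter.2 ?_
    intro h _ h1 h2
    have := det_eq h
    rcases h1 with e | ⟨e, -⟩ <;> simp [h2.1, h2.2, e] at this

theorem card_circle [DecidableEq F] (k : F) :
    Nat.card {v : F × F // v.1 ^ 2 + v.2 ^ 2 = k} = if k = 0 then 1 else Fintype.card F + 1 := by
  classical
  have hone : Nat.card {v : F × F // v.1 ^ 2 + v.2 ^ 2 = 1} = Fintype.card F + 1 := by
    have hns : ¬ IsSplitTrace (tr (w : SL(2, F))) := by
      rw [tr_w, isSplitTrace_iff_root]
      rintro ⟨a, ha⟩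
      exact not_isSquare_neg_one hp hodd hF ⟨a, by linear_combination -ha⟩
    rw [← card_centralizer_nonsplit hns]
    refine Nat.card_congr
      { toFun := fun v => ⟨mk4 v.1.1 v.1.2 (-v.1.2) v.1.1 (by linear_combination v.2), by
          rw [Subgroup.mem_centralizer_singleton_iff]
          apply ext4 <;> simp [Matrix.mul_apply, Fin.sum_univ_two]⟩
        invFun := fun g => ⟨(g.1 0 0, g.1 0 1), by
          have hg := Subgroup.mem_centralizer_singleton_iff.1 g.2
          have h1 := congrArg (fun x : SL(2, F) => x 0 0) hg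
          have h2 := congrArg (fun x : SL(2, F) => x 0 1) hg
          simp [Matrix.mul_apply, Fin.sum_univ_two] at h1 h2
          have := det_eq g.1
          linear_combination this - g.1 0 1 * h1 + g.1 0 0 * h2⟩
        left_inv := fun v => by ext <;> simp
        right_inv := fun g => by
          have hg := Subgroup.mem_centralizer_singleton_iff.1 g.2
          have h1 := congrArg (fun x : SL(2, F) => x 0 0) hg
          have h2 := congrArg (fun x : SL(2, F) => x 0 1) hg
          simp [Matrix.mul_apply, Fin.sum_univ_two] at h1 h2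
          apply Subtype.ext
          apply ext4 <;> simp
          · linear_combination h1
          · linear_combination h2 }
  split_ifs with hk
  · subst hk
    rw [Nat.card_eq_one_iff_unique]
    refine ⟨⟨fun v w => Subtype.ext ?_⟩, ⟨⟨(0, 0), by simp⟩⟩⟩
    obtain ⟨h1, h2⟩ := sq_add_sq_eq_zero hp hodd hF v.2
    obtain ⟨h3, h4⟩ := sq_add_sq_eq_zero hp hodd hF w.2
    exact Prod.ext (h1.trans h3.symm) (h2.trans h4.symm)
  · obtain ⟨s, t, hst⟩ := FiniteField.exists_root_sum_quadratic (R := F) (f := Polynomial.X ^ 2)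
      (g := Polynomial.X ^ 2 - Polynomial.C k) (by rw [Polynomial.degree_X_pow]; rfl)
      (Polynomial.degree_X_pow_sub_C (by norm_num) k) (by have := card_mod_four hp hodd hF; omega)
    simp at hst
    have hst' : s ^ 2 + t ^ 2 = k := by linear_combination hst
    rw [← hone]
    refine (Nat.card_congr (α := {v : F × F // v.1 ^ 2 + v.2 ^ 2 = 1}) (β := {v : F × F // v.1 ^ 2 + v.2 ^ 2 = k})
      { toFun := fun v => ⟨(s * v.1.1 - t * v.1.2, t * v.1.1 + s * v.1.2), by
          linear_combination (s ^ 2 + t ^ 2) * v.2 + hst'⟩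
        invFun := fun v => ⟨((s * v.1.1 + t * v.1.2) / k, (s * v.1.2 - t * v.1.1) / k), by
          field_simp
          linear_combination (s ^ 2 + t ^ 2) * v.2 + k * hst'⟩
        left_inv := fun v => by
          apply Subtype.ext
          apply Prod.ext
          · simp only [div_eq_mul_inv]
            linear_combination (v.1.1 * k⁻¹) * hst' + v.1.1 * mul_inv_cancel₀ hk
          · simp only [div_eq_mul_inv]
            linear_combination (v.1.2 * k⁻¹) * hst' + v.1.2 * mul_inv_cancel₀ hk
        right_inv := fun v => by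
          apply Subtype.ext
          apply Prod.ext
          · simp only [div_eq_mul_inv]
            linear_combination (v.1.1 * k⁻¹) * hst' + v.1.1 * mul_inv_cancel₀ hk
          · simp only [div_eq_mul_inv]
            linear_combination (v.1.2 * k⁻¹) * hst' + v.1.2 * mul_inv_cancel₀ hk }).symm

/-- Elements with given coordinates. -/
theorem card_fibres (P : F → F → Prop) :
    Nat.card {h : SL(2, F) // P (tr h) (h 1 0 - h 0 1)} =
      Nat.card {v : (F × F) × (F × F) // P v.1.1 v.1.2 ∧ v.2.1 ^ 2 + v.2.2 ^ 2 = v.1.1 ^ 2 + v.1.2 ^ 2 - 4} := by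
  have h2 := two_ne_zero' hp hF
  refine Nat.card_congr
    { toFun := fun h => ⟨((tr h.1, h.1 1 0 - h.1 0 1), (h.1 0 0 - h.1 1 1, h.1 0 1 + h.1 1 0)), h.2, by
        have := det_eq h.1
        simp only [tr]
        linear_combination -4 * this⟩
      invFun := fun v => ⟨mk4 ((v.1.1.1 + v.1.2.1) / 2) ((v.1.2.2 - v.1.1.2) / 2) ((v.1.2.2 + v.1.1.2) / 2)
        ((v.1.1.1 - v.1.2.1) / 2) (by field_simp; linear_combination -v.2.2), by
          have e1 : (v.1.1.1 + v.1.2.1) / 2 + (v.1.1.1 - v.1.2.1) / 2 = v.1.1.1 := by field_simp; ring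
          have e2 : (v.1.2.2 + v.1.1.2) / 2 - (v.1.2.2 - v.1.1.2) / 2 = v.1.1.2 := by field_simp; ring
          simpa [tr, e1, e2] using v.2.1⟩
      left_inv := fun h => by
        apply Subtype.ext
        apply ext4 <;> simp [tr] <;> field_simp <;> ring
      right_inv := fun v => by
        apply Subtype.ext
        simp [tr, Prod.ext_iff]
        refine ⟨⟨?_, ?_⟩, ?_, ?_⟩ <;> field_simp <;> ring }

/-- Summing over a set of trace pairs. -/
theorem card_fibres_sum (P : F → F → Prop) (K : Finset (F × F)) (S : Finset (F × F))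
    (hK : ∀ v ∈ K, v.1 ^ 2 + v.2 ^ 2 - 4 = 0) (hS : ∀ v ∈ S, v.1 ^ 2 + v.2 ^ 2 - 4 ≠ 0)
    (hP : ∀ b c : F, P b c ↔ (b, c) ∈ K ∨ (b, c) ∈ S) :
    Nat.card {h : SL(2, F) // P (tr h) (h 1 0 - h 0 1)} = K.card + S.card * (Fintype.card F + 1) := by
  classical
  rw [card_fibres hp hodd hF]
  have hdis : Disjoint K S := Finset.disjoint_left.2 fun v h1 h2 => hS v h2 (hK v h1)
  let e : {v : (F × F) × (F × F) // P v.1.1 v.1.2 ∧ v.2.1 ^ 2 + v.2.2 ^ 2 = v.1.1 ^ 2 + v.1.2 ^ 2 - 4} ≃
      Σ w : ↥(K ∪ S), {u : F × F // u.1 ^ 2 + u.2 ^ 2 = w.1.1 ^ 2 + w.1.2 ^ 2 - 4} :=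
    { toFun := fun v => ⟨⟨v.1.1, Finset.mem_union.2 ((hP _ _).1 v.2.1)⟩, ⟨v.1.2, v.2.2⟩⟩
      invFun := fun v => ⟨(v.1.1, v.2.1), (hP _ _).2 (Finset.mem_union.1 v.1.2), v.2.2⟩
      left_inv := fun v => rfl
      right_inv := fun v => rfl }
  rw [Nat.card_congr e, Nat.card_sigma]
  simp only [card_circle hp hodd hF]
  rw [Finset.sum_coe_sort (K ∪ S) (fun w : F × F => if w.1 ^ 2 + w.2 ^ 2 - 4 = 0 then 1 else Fintype.card F + 1),
    Finset.sum_union hdis, Finset.sum_congr rfl fun v hv => if_pos (hK v hv),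
    Finset.sum_congr rfl fun v hv => if_neg (hS v hv)]
  simp

theorem card_K [DecidableEq F] :
    (Finset.univ.filter fun v : F × F => v.1 ^ 2 + v.2 ^ 2 - 4 = 0).card = Fintype.card F + 1 := by
  have := charP_three hp hF
  have h3 : (3 : F) = 0 := CharP.cast_eq_zero F 3
  have h := card_circle hp hodd hF (1 : F)
  rw [if_neg one_ne_zero, Nat.card_eq_fintype_card, Fintype.card_subtype] at h
  rw [← h]
  congr 1
  exact Finset.filter_congr fun v _ => ⟨fun e => by linear_combination e + h3, fun e => by linear_combination e - h3⟩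

/-- The nonsplit case. -/
theorem num_nonsplit {x y : F} (hxy : x * x - y * (-y) = 1) (hy : y ≠ 0) (hx : x ≠ 0)
    (hx3 : (2 * x) ^ 3 ≠ 2 * x) :
    num (mk4 x y (-y) x hxy) = 2 * (Fintype.card F + 1) := by
  classical
  have := charP_three hp hF
  have h3 : (3 : F) = 0 := CharP.cast_eq_zero F 3
  have htg : tr (mk4 x y (-y) x hxy) = 2 * x := by simp [tr]; ring
  have hne : 2 * x ≠ 0 := mul_ne_zero (two_ne_zero' hp hF) hx
  have hgood : ∀ h : SL(2, F), Good (mk4 x y (-y) x hxy) h ↔
      (tr h ^ 2 + (h 1 0 - h 0 1) ^ 2 - 4 = 0 ∨ (tr h = 0 ∧ h 1 0 - h 0 1 = 0)) := by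
    intro h
    have htr : tr (mk4 x y (-y) x hxy * h) = x * tr h + y * (h 1 0 - h 0 1) := by
      simp [tr, Matrix.mul_apply, Fin.sum_univ_two]; ring
    have hk : kap (mk4 x y (-y) x hxy) h = y ^ 2 * (tr h ^ 2 + (h 1 0 - h 0 1) ^ 2 - 4) := by
      rw [kap, htr, htg]
      linear_combination (4 - tr h ^ 2) * hxy
    constructor
    · rintro (e | ⟨e, -⟩ | ⟨e, -⟩ | ⟨e, e'⟩ | ⟨e, -, -⟩)
      · rw [hk] at e
        exact Or.inl ((mul_eq_zero.1 e).resolve_left (pow_ne_zero 2 hy))
      · exact absurd (htg ▸ e) hne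
      · exact absurd (htg ▸ e) hne
      · right
        rw [htr, e, mul_zero, zero_add] at e'
        exact ⟨e, (mul_eq_zero.1 e').resolve_left hy⟩
      · rw [htg] at e; exact absurd e hx3
    · rintro (e | ⟨e, e'⟩)
      · left; rw [hk, e, mul_zero]
      · exact Or.inr (Or.inr (Or.inr (Or.inl ⟨e, by rw [htr, e, e']; ring⟩)))
  rw [num, Nat.card_congr (Equiv.subtypeEquivRight hgood),
    card_fibres_sum hp hodd hF (fun b c => b ^ 2 + c ^ 2 - 4 = 0 ∨ (b = 0 ∧ c = 0))
      (Finset.univ.filter fun v : F × F => v.1 ^ 2 + v.2 ^ 2 - 4 = 0) {(0, 0)} (by simp) ?_ (by simp),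
    card_K hp hodd hF, Finset.card_singleton]
  · ring
  · intro v hv e
    rw [Finset.mem_singleton] at hv
    subst hv
    exact one_ne_zero (by linear_combination -e - h3 : (1 : F) = 0)

/-- The involutions. -/
theorem num_involution : num (w : SL(2, F)) = 2 * (Fintype.card F * (Fintype.card F + 1)) := by
  classical
  have := charP_three hp hF
  have h3 : (3 : F) = 0 := CharP.cast_eq_zero F 3
  have h10 : (1 : F) ≠ -1 := fun e => two_ne_zero' hp hF (by linear_combination e)
  have hgood : ∀ h : SL(2, F), Good w h ↔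
      (tr h ^ 2 + (h 1 0 - h 0 1) ^ 2 - 4 = 0 ∨ tr h = 0 ∨ h 1 0 - h 0 1 = 0 ∨
        (tr h ^ 3 = tr h ∧ (h 1 0 - h 0 1) ^ 3 = h 1 0 - h 0 1)) := by
    intro h
    have htr : tr (w * h) = h 1 0 - h 0 1 := by
      simp [tr, Matrix.mul_apply, Fin.sum_univ_two]; ring
    have hk : kap w h = tr h ^ 2 + (h 1 0 - h 0 1) ^ 2 - 4 := by
      rw [kap, htr, tr_w]; ring
    rw [Good, hk, htr, tr_w]
    simp
    tauto
  have hcube : ∀ a : F, a ^ 3 = a ↔ a = 0 ∨ a = 1 ∨ a = -1 := by
    intro a
    constructor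
    · intro ha
      have : a * ((a - 1) * (a + 1)) = 0 := by linear_combination ha
      rcases mul_eq_zero.1 this with h | h
      · exact Or.inl h
      rcases mul_eq_zero.1 h with h | h
      · exact Or.inr (Or.inl (sub_eq_zero.1 h))
      · exact Or.inr (Or.inr (eq_neg_of_add_eq_zero_left h))
    · rintro (rfl | rfl | rfl) <;> ring
  set U : Finset F := Finset.univ \ {1, -1}
  set W : Finset F := Finset.univ \ {0, 1, -1}
  set S : Finset (F × F) := {0} ×ˢ U ∪ W ×ˢ {0} ∪ {1, -1} ×ˢ {1, -1} with hSdef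
  have hmem : ∀ b c : F, (b, c) ∈ S ↔ (b = 0 ∧ c ≠ 1 ∧ c ≠ -1) ∨ ((b ≠ 0 ∧ b ≠ 1 ∧ b ≠ -1) ∧ c = 0) ∨
      ((b = 1 ∨ b = -1) ∧ (c = 1 ∨ c = -1)) := by
    intro b c
    simp only [S, U, W, Finset.mem_union, Finset.mem_product, Finset.mem_singleton, Finset.mem_sdiff,
      Finset.mem_univ, true_and, Finset.mem_insert, not_or, or_assoc, ne_eq]
  have hU : U.card = Fintype.card F - 2 := by
    rw [Finset.card_sdiff_of_subset (Finset.subset_univ _), Finset.card_univ, Finset.card_pair h10]
  have hW : W.card = Fintype.card F - 3 := by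
    rw [Finset.card_sdiff_of_subset (Finset.subset_univ _), Finset.card_univ, Finset.card_eq_three.2
      ⟨0, 1, -1, zero_ne_one, (neg_ne_zero.2 one_ne_zero).symm, h10, rfl⟩]
  have hScard : S.card = 2 * Fintype.card F - 1 := by
    rw [hSdef, Finset.card_union_of_disjoint, Finset.card_union_of_disjoint, Finset.card_product,
      Finset.card_product, Finset.card_product, hU, hW, Finset.card_singleton, Finset.card_pair h10]
    · have : 3 ≤ Fintype.card F := hF ▸ Nat.le_self_pow hp.ne_zero 3
      omega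
    · rw [Finset.disjoint_left]
      rintro ⟨b, c⟩ h1 h2
      simp only [U, W, Finset.mem_product, Finset.mem_singleton, Finset.mem_sdiff, Finset.mem_univ, true_and,
        Finset.mem_insert, not_or] at h1 h2
      exact h2.1.1 h1.1
    · rw [Finset.disjoint_left]
      rintro ⟨b, c⟩ h1 h2
      simp only [U, W, Finset.mem_union, Finset.mem_product, Finset.mem_singleton, Finset.mem_sdiff,
        Finset.mem_univ, true_and, Finset.mem_insert, not_or] at h1 h2
      rcases h1 with ⟨rfl, -⟩ | ⟨-, rfl⟩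
      · rcases h2.1 with e | e
        · exact zero_ne_one e
        · exact one_ne_zero (neg_eq_zero.1 e.symm)
      · rcases h2.2 with e | e
        · exact zero_ne_one e
        · exact one_ne_zero (neg_eq_zero.1 e.symm)
  have hS0 : ∀ v ∈ S, v.1 ^ 2 + v.2 ^ 2 - 4 ≠ 0 := by
    rintro ⟨b, c⟩ hv e
    simp only [hmem] at hv
    simp only at e
    rcases hv with ⟨rfl, h1, h2⟩ | ⟨⟨-, h1, h2⟩, rfl⟩ | ⟨hb, hc⟩
    · have : (c - 1) * (c + 1) = 0 := by linear_combination e + h3
      rcases mul_eq_zero.1 this with h | h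
      exacts [h1 (sub_eq_zero.1 h), h2 (eq_neg_of_add_eq_zero_left h)]
    · have : (b - 1) * (b + 1) = 0 := by linear_combination e + h3
      rcases mul_eq_zero.1 this with h | h
      exacts [h1 (sub_eq_zero.1 h), h2 (eq_neg_of_add_eq_zero_left h)]
    · have hb2 : b ^ 2 = 1 := by rcases hb with rfl | rfl <;> ring
      have hc2 : c ^ 2 = 1 := by rcases hc with rfl | rfl <;> ring
      exact one_ne_zero (by linear_combination e - hb2 - hc2 + h3 : (1 : F) = 0)
  rw [num, Nat.card_congr (Equiv.subtypeEquivRight hgood),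
    card_fibres_sum hp hodd hF (fun b c => b ^ 2 + c ^ 2 - 4 = 0 ∨ b = 0 ∨ c = 0 ∨ (b ^ 3 = b ∧ c ^ 3 = c))
      (Finset.univ.filter fun v : F × F => v.1 ^ 2 + v.2 ^ 2 - 4 = 0) S (by simp) hS0 ?_,
    card_K hp hodd hF, hScard]
  · obtain ⟨m, hm⟩ : ∃ m, Fintype.card F = m + 1 := ⟨_, (Nat.succ_pred_eq_of_pos Fintype.card_pos).symm⟩
    rw [hm, show 2 * (m + 1) - 1 = 2 * m + 1 by omega]
    ring
  · intro b c
    have z0 : ∀ c : F, (c = 1 ∨ c = -1) → (0 : F) ^ 2 + c ^ 2 - 4 = 0 := by
      rintro c (rfl | rfl) <;> linear_combination -h3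
    rw [hmem, hcube, hcube]
    simp only [Finset.mem_filter, Finset.mem_univ, true_and]
    constructor
    · rintro (e | rfl | rfl | ⟨hb, hc⟩)
      · exact Or.inl e
      · by_cases hc : c = 1 ∨ c = -1
        · exact Or.inl (by simpa using z0 c hc)
        · push Not at hc
          exact Or.inr (Or.inl (⟨rfl, hc⟩))
      · by_cases hb : b = 1 ∨ b = -1
        · exact Or.inl (by linear_combination z0 b hb)
        · push Not at hb
          by_cases hb0 : b = 0
          · exact Or.inr (Or.inl (⟨hb0, zero_ne_one, (neg_ne_zero.2 one_ne_zero).symm⟩))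
          · exact Or.inr (Or.inr (Or.inl ⟨⟨hb0, hb.1, hb.2⟩, rfl⟩))
      · rcases hb with rfl | hb
        · rcases hc with rfl | hc
          · exact Or.inr (Or.inl (⟨rfl, zero_ne_one, (neg_ne_zero.2 one_ne_zero).symm⟩))
          · exact Or.inl (by simpa using z0 c hc)
        · rcases hc with rfl | hc
          · exact Or.inl (by linear_combination z0 b hb)
          · exact Or.inr (Or.inr (Or.inr ⟨hb, hc⟩))
    · tauto

/-- The elements of order three. -/
theorem num_unipotent {s : F} (hs : s ≠ 0) :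
    num (u s : SL(2, F)) = Fintype.card F * (Fintype.card F + 5) := by
  classical
  have := charP_three hp hF
  have h3 : (3 : F) = 0 := CharP.cast_eq_zero F 3
  have h2 := two_ne_zero' hp hF
  have h10 : (1 : F) ≠ -1 := fun e => two_ne_zero' hp hF (by linear_combination e)
  set T : Finset F := Finset.univ.filter fun t => t ^ 3 = t with hTdef
  have hT : T = {0, 1, -1} := by
    ext a
    simp only [T, Finset.mem_filter, Finset.mem_univ, true_and, Finset.mem_insert, Finset.mem_singleton]
    constructor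
    · intro ha
      have : a * ((a - 1) * (a + 1)) = 0 := by linear_combination ha
      rcases mul_eq_zero.1 this with h | h
      · exact Or.inl h
      rcases mul_eq_zero.1 h with h | h
      · exact Or.inr (Or.inl (sub_eq_zero.1 h))
      · exact Or.inr (Or.inr (eq_neg_of_add_eq_zero_left h))
    · rintro (rfl | rfl | rfl) <;> ring
  have hTc : T.card = 3 := by
    rw [hT]
    exact Finset.card_eq_three.2 ⟨0, 1, -1, zero_ne_one, (neg_ne_zero.2 one_ne_zero).symm, h10, rfl⟩
  have htr : ∀ h : SL(2, F), tr (u s * h) = tr h + s * h 1 0 := fun h => by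
    simp [tr, Matrix.mul_apply, Fin.sum_univ_two]; ring
  have hgood : ∀ h : SL(2, F), Good (u s) h ↔
      h 1 0 = 0 ∨ (h 1 0 ≠ 0 ∧ tr h ^ 3 = tr h ∧ (tr h + s * h 1 0) ^ 3 = tr h + s * h 1 0) := by
    intro h
    have hk : kap (u s) h = (s * h 1 0) ^ 2 := by rw [kap, htr, tr_u]; ring
    constructor
    · intro hg
      by_cases h0 : h 1 0 = 0
      · exact Or.inl h0
      rcases hg with e | ⟨e, -⟩ | ⟨e, -⟩ | ⟨e, e'⟩ | ⟨-, e, e'⟩
      · rw [hk] at e
        exact absurd ((pow_eq_zero_iff two_ne_zero).1 e) (mul_ne_zero hs h0)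
      · exact absurd e (by rw [tr_u]; exact h2)
      · exact absurd e (by rw [tr_u]; exact h2)
      · rw [htr, e, zero_add] at e'
        exact absurd e' (mul_ne_zero hs h0)
      · rw [htr] at e'
        exact Or.inr ⟨h0, e, e'⟩
    · rintro (e | ⟨-, e, e'⟩)
      · left; rw [hk, e]; ring
      · refine Or.inr (Or.inr (Or.inr (Or.inr ⟨?_, e, by rwa [htr]⟩)))
        rw [tr_u]; linear_combination (2 : F) * h3
  have e1 : Nat.card {h : SL(2, F) // h 1 0 = 0} = Fintype.card F * (Fintype.card F - 1) := B_nat_card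
  have e2 : Nat.card {h : SL(2, F) // h 1 0 ≠ 0 ∧ tr h ^ 3 = tr h ∧
      (tr h + s * h 1 0) ^ 3 = tr h + s * h 1 0} = Fintype.card F * 6 := by
    have h6 : T.offDiag.card = 6 := by rw [Finset.offDiag_card, hTc]
    rw [← h6, ← Nat.card_eq_fintype_card (α := F), ← Nat.card_eq_finsetCard T.offDiag, ← Nat.card_prod]
    refine Nat.card_congr
      { toFun := fun h => (h.1 0 0, ⟨(tr h.1, tr h.1 + s * h.1 1 0), by
          rw [Finset.mem_offDiag]
          refine ⟨by simpa [T] using h.2.2.1, by simpa [T] using h.2.2.2, fun e => h.2.1 ?_⟩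
          have : s * h.1 1 0 = 0 := by linear_combination -e
          exact (mul_eq_zero.1 this).resolve_left hs⟩)
        invFun := fun v => ⟨mk4 v.1 ((v.1 * (v.2.1.1 - v.1) - 1) / ((v.2.1.2 - v.2.1.1) / s))
            ((v.2.1.2 - v.2.1.1) / s) (v.2.1.1 - v.1) (by
              have hne : v.2.1.2 - v.2.1.1 ≠ 0 := sub_ne_zero.2 fun e => (Finset.mem_offDiag.1 v.2.2).2.2 e.symm
              field_simp
              ring), by
          obtain ⟨m1, m2, m3⟩ := Finset.mem_offDiag.1 v.2.2
          have e0 : s * ((v.2.1.2 - v.2.1.1) / s) = v.2.1.2 - v.2.1.1 := mul_div_cancel₀ _ hs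
          simp only [T, Finset.mem_filter, Finset.mem_univ, true_and] at m1 m2
          simp [tr, e0, hs, sub_eq_zero, m1, m2, Ne.symm m3]⟩
        left_inv := fun h => by
          have hd := det_eq h.1
          have h0 := h.2.1
          apply Subtype.ext
          apply ext4 <;> simp [tr] <;> field_simp
          all_goals linear_combination hd
        right_inv := fun v => by
          have e0 : s * ((v.2.1.2 - v.2.1.1) / s) = v.2.1.2 - v.2.1.1 := mul_div_cancel₀ _ hs
          apply Prod.ext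
          · simp
          · apply Subtype.ext
            apply Prod.ext <;> simp [tr, e0] }
  rw [Nat.card_eq_fintype_card, Fintype.card_subtype] at e1 e2
  rw [num, Nat.card_eq_fintype_card, Fintype.card_subtype, Finset.filter_congr fun h _ => hgood h,
    Finset.filter_or, Finset.card_union_of_disjoint (Finset.disjoint_filter.2 fun h _ h1 h2 => h2.1 h1), e1, e2]
  obtain ⟨m, hm⟩ : ∃ m, Fintype.card F = m + 1 := ⟨_, (Nat.succ_pred_eq_of_pos Fintype.card_pos).symm⟩
  rw [hm, Nat.add_sub_cancel]
  ring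

end CfsgLib.PSLSolub
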